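import Cfsg.Agent.H474.Pw.NF
import Cfsg.Prelude.Def_Classical
import Cfsg.Agent.LieClassical.FieldTransfer

/-!
# The finite check and the conclusion for `PSp_4(F)`
-/

set_option autoImplicit false

open Module Matrix

namespace Cfsg.Agent.H474.Pw

open Cfsg.Agent.H144 Cfsg.Agent.H649.PwSp

/-- codes of `M1` -/
def cM1 (p b c c' d : ℕ) : Mt := ⟨0, cn p 1, 0, 0, 1, b, c, d, 0, 1, 0, cn p c', 0, 0, c, d⟩

/-- codes of `M2` -/
def cM2 (p b c c' d : ℕ) : Mt := ⟨0, cn p 1, 0, 0, 1, b, 0, c', 0, 1, c, d, 0, 0, 0, c'⟩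

/-- codes of `M3` -/
def cM3 (p b c c' d : ℕ) : Mt := ⟨0, cn p 1, 0, 0, 1, b, 0, 0, 0, 0, 0, cn p c', 0, 0, c, d⟩

/-- codes of `M4` -/
def cM4 (p b e : ℕ) : Mt := ⟨0, cn p 1, 0, 0, 1, b, 0, 0, 0, 0, e, 0, 0, 0, 0, e⟩

/-- codes of `M5` -/
def cM5 (p : ℕ) : Mt := ⟨1, 0, 0, 0, 0, 1, 0, 0, 0, 0, cn p 1, 0, 0, 0, 0, cn p 1⟩

/-- codes of `M6` -/
def cM6 : Mt := ⟨1, 0, 0, 0, 0, 1, 1, 0, 0, 0, 1, 0, 1, 0, 0, 1⟩

/-- all parameters -/
def par (bs els : List ℕ) (prs : List (ℕ × ℕ)) : List (ℕ × (ℕ × ℕ) × ℕ) :=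
  bs.flatMap fun b => prs.flatMap fun c => els.map fun d => (b, c, d)

/-- test all parameters, with a list of indices -/
def allz (Ws : List Mt) (f : ℕ × (ℕ × ℕ) × ℕ → Mt → Bool) : List (ℕ × (ℕ × ℕ) × ℕ) → List ℕ → Bool
  | [], _ => true
  | _ :: _, [] => false
  | x :: l, k :: m => (match Ws[k]? with
      | some W => f x W
      | none => false) && allz Ws f l m

theorem allz_sound {Ws : List Mt} {f : ℕ × (ℕ × ℕ) × ℕ → Mt → Bool} {l : List (ℕ × (ℕ × ℕ) × ℕ)} {m : List ℕ}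
    (h : allz Ws f l m = true) : ∀ x ∈ l, Ws.any (f x) = true := by
  induction l generalizing m with
  | nil => intro x hx; exact absurd hx (List.not_mem_nil)
  | cons y l ih =>
    cases m with
    | nil => exact absurd h (by simp [allz])
    | cons k m =>
      rw [allz, Bool.and_eq_true] at h
      intro x hx
      rcases List.mem_cons.1 hx with rfl | hx
      · have h1 := h.1
        cases hk : Ws[k]? with
        | none => rw [hk] at h1; exact absurd h1 (by simp)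
        | some W =>
          rw [hk] at h1
          exact List.any_eq_true.2 ⟨W, List.mem_of_getElem? hk, h1⟩
      · exact ih h.2 x hx

/-- first family -/
def chk1 (p s t : ℕ) (G : List (ℕ × ℕ)) (Ws : List Mt) (bs els : List ℕ) (prs : List (ℕ × ℕ)) (idx : List ℕ) :
    Bool :=
  allz Ws (fun x => okM p s t G (cM1 p x.1 x.2.1.1 x.2.1.2 x.2.2)) (par bs els prs) idx

/-- second family -/
def chk2 (p s t : ℕ) (G : List (ℕ × ℕ)) (Ws : List Mt) (bs els : List ℕ) (prs : List (ℕ × ℕ)) (idx : List ℕ) :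
    Bool :=
  allz Ws (fun x => okM p s t G (cM2 p x.1 x.2.1.1 x.2.1.2 x.2.2)) (par bs els prs) idx

/-- third family -/
def chk3 (p s t : ℕ) (G : List (ℕ × ℕ)) (Ws : List Mt) (bs els : List ℕ) (prs : List (ℕ × ℕ)) (idx : List ℕ) :
    Bool :=
  allz Ws (fun x => okM p s t G (cM3 p x.1 x.2.1.1 x.2.1.2 x.2.2)) (par bs els prs) idx

/-- the other families -/
def chk4 (p s t : ℕ) (G : List (ℕ × ℕ)) (Ws : List Mt) (els : List ℕ) : Bool :=
  (els.all fun b => Ws.any (okM p s t G (cM4 p b 1)) && Ws.any (okM p s t G (cM4 p b (cn p 1)))) &&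
    (Ws.any (okM p s t G (cM5 p)) && (Nat.beq p 3 || Ws.any (okM p s t G cM6)))

section

variable {F : Type*} [Field F] {p s t : ℕ} {θ : F}

theorem Cd.neg_one (h : Cd p s t θ) : cod θ (Pw.cn p 1) = -1 := by rw [h.cn, cod_one]

theorem Cd.M1 (h : Cd p s t θ) {b c c' d : ℕ} (hc : cod θ c' = (cod θ c)⁻¹) :
    (cM1 p b c c' d).toM θ = Pw.M1 (cod θ b) (cod θ c) (cod θ d) := by
  simp [cM1, Mt.toM, Pw.M1, h.neg_one, h.cn, cod_one, cod_zero, hc]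

theorem Cd.M2 (h : Cd p s t θ) {b c c' d : ℕ} (hc : cod θ c' = (cod θ c)⁻¹) :
    (cM2 p b c c' d).toM θ = Pw.M2 (cod θ b) (cod θ c) (cod θ d) := by
  simp [cM2, Mt.toM, Pw.M2, h.neg_one, cod_one, cod_zero, hc]

theorem Cd.M3 (h : Cd p s t θ) {b c c' d : ℕ} (hc : cod θ c' = (cod θ c)⁻¹) :
    (cM3 p b c c' d).toM θ = Pw.M3 (cod θ b) (cod θ c) (cod θ d) := by
  simp [cM3, Mt.toM, Pw.M3, h.neg_one, h.cn, cod_one, cod_zero, hc]

theorem Cd.M4 (h : Cd p s t θ) {b e : ℕ} :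
    (cM4 p b e).toM θ = Pw.M4 (cod θ b) (cod θ e) := by
  simp [cM4, Mt.toM, Pw.M4, h.neg_one, cod_one, cod_zero]

theorem Cd.M5 (h : Cd p s t θ) : (cM5 p).toM θ = Pw.M5 F := by
  simp [cM5, Mt.toM, Pw.M5, h.neg_one, cod_one, cod_zero]

theorem toM_M6 : cM6.toM θ = Pw.M6 F := by
  simp [cM6, Mt.toM, Pw.M6, cod_one, cod_zero]

theorem spE_M1 (b c d : F) (hc : c ≠ 0) : SpE (M1 b c d) := by
  refine spE_of ?_ ?_ ?_ ?_ ?_ ?_ <;> simp [Bv, M1, hc]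

theorem spE_M2 (b c d : F) (hc : c ≠ 0) : SpE (M2 b c d) := by
  refine spE_of ?_ ?_ ?_ ?_ ?_ ?_ <;> simp [Bv, M2, hc]

theorem spE_M3 (b c d : F) (hc : c ≠ 0) : SpE (M3 b c d) := by
  refine spE_of ?_ ?_ ?_ ?_ ?_ ?_ <;> simp [Bv, M3, hc]

theorem spE_M4 (b e : F) (he : e * e = 1) : SpE (M4 b e) := by
  refine spE_of ?_ ?_ ?_ ?_ ?_ ?_ <;> simp [Bv, M4, he]

theorem spE_M5 : SpE (M5 F) := by
  refine spE_of ?_ ?_ ?_ ?_ ?_ ?_ <;> simp [Bv, M5]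

theorem spE_M6 (h2 : (2 : F) = 0) : SpE (M6 F) := by
  have h1 : (-1 : F) = 1 := by
    rw [neg_eq_iff_add_eq_zero, one_add_one_eq_two, h2]
  refine spE_of ?_ ?_ ?_ ?_ ?_ ?_ <;> simp [Bv, M6, h1, one_add_one_eq_two, h2]

/-- the hypotheses: all families are checked -/
structure Ok (F : Type*) [Field F] (N : ℕ) : Prop where
  all : ∀ M : Matrix (Fin 4) (Fin 4) F, Form M → GoodM N M

theorem Ok.of {N : ℕ} (h : Cd p s t θ) {G : List (ℕ × ℕ × ℕ × List ℕ)} (hG : chkG p s t N G = true)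
    {Ws : List Mt} (hW : chkW p s t (prj G) Ws = true) {els : List ℕ} {prs : List (ℕ × ℕ)}
    (hels : ∀ x : F, ∃ b ∈ els, cod θ b = x)
    (hprs : ∀ x : F, x ≠ 0 → ∃ c ∈ prs, cod θ c.1 = x ∧ cod θ c.2 = x⁻¹) (hp : (2 : F) = 0 → p ≠ 3)
    (h1 : ∀ b ∈ els, ∃ bs i, b ∈ bs ∧ chk1 p s t (prj G) Ws bs els prs i = true)
    (h2 : ∀ b ∈ els, ∃ bs i, b ∈ bs ∧ chk2 p s t (prj G) Ws bs els prs i = true)
    (h3 : ∀ b ∈ els, ∃ bs i, b ∈ bs ∧ chk3 p s t (prj G) Ws bs els prs i = true)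
    (h4 : chk4 p s t (prj G) Ws els = true) : Ok F N := by
  have mem : ∀ bs : List ℕ, ∀ b ∈ bs, ∀ c ∈ prs, ∀ d ∈ els, (b, c, d) ∈ par bs els prs := by
    intro bs b hb c hc d hd
    unfold par
    rw [List.mem_flatMap]
    refine ⟨b, hb, ?_⟩
    rw [List.mem_flatMap]
    exact ⟨c, hc, List.mem_map.2 ⟨d, hd, rfl⟩⟩
  have a1 : ∀ β ∈ els, ∀ γ ∈ prs, ∀ δ ∈ els, Ws.any (okM p s t (prj G) (cM1 p β γ.1 γ.2 δ)) = true := by
    intro β hβ γ hγ δ hδ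
    obtain ⟨bs, i, hbs, h⟩ := h1 β hβ
    unfold chk1 at h
    exact allz_sound h (β, γ, δ) (mem bs β hbs γ hγ δ hδ)
  have a2 : ∀ β ∈ els, ∀ γ ∈ prs, ∀ δ ∈ els, Ws.any (okM p s t (prj G) (cM2 p β γ.1 γ.2 δ)) = true := by
    intro β hβ γ hγ δ hδ
    obtain ⟨bs, i, hbs, h⟩ := h2 β hβ
    unfold chk2 at h
    exact allz_sound h (β, γ, δ) (mem bs β hbs γ hγ δ hδ)
  have a3 : ∀ β ∈ els, ∀ γ ∈ prs, ∀ δ ∈ els, Ws.any (okM p s t (prj G) (cM3 p β γ.1 γ.2 δ)) = true := by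
    intro β hβ γ hγ δ hδ
    obtain ⟨bs, i, hbs, h⟩ := h3 β hβ
    unfold chk3 at h
    exact allz_sound h (β, γ, δ) (mem bs β hbs γ hγ δ hδ)
  unfold chk4 at h4
  rw [Bool.and_eq_true, Bool.and_eq_true, List.all_eq_true] at h4
  refine ⟨fun M hM => ?_⟩
  rcases hM with ⟨b, c, d, hc, hM⟩ | ⟨b, hM⟩ | ⟨-, rfl⟩ | ⟨hF, rfl⟩
  · obtain ⟨β, hβ, rfl⟩ := hels b
    obtain ⟨γ, hγ, rfl, hγ'⟩ := hprs c hc
    obtain ⟨δ, hδ, rfl⟩ := hels d
    rcases hM with rfl | rfl | rfl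
    · rw [← h.M1 hγ']
      exact h.good hG hW (by rw [h.M1 hγ']; exact spE_M1 _ _ _ hc) (a1 β hβ γ hγ δ hδ)
    · rw [← h.M2 hγ']
      exact h.good hG hW (by rw [h.M2 hγ']; exact spE_M2 _ _ _ hc) (a2 β hβ γ hγ δ hδ)
    · rw [← h.M3 hγ']
      exact h.good hG hW (by rw [h.M3 hγ']; exact spE_M3 _ _ _ hc) (a3 β hβ γ hγ δ hδ)
  · obtain ⟨β, hβ, rfl⟩ := hels b
    have h5 := h4.1 β hβ
    rw [Bool.and_eq_true] at h5
    rcases hM with rfl | rfl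
    · rw [← cod_one θ, ← h.M4]
      exact h.good hG hW (by rw [h.M4]; exact spE_M4 _ _ (by rw [cod_one]; ring)) h5.1
    · rw [← h.neg_one, ← h.M4]
      exact h.good hG hW (by rw [h.M4]; exact spE_M4 _ _ (by rw [h.neg_one]; ring)) h5.2
  · rw [← h.M5]
    exact h.good hG hW (by rw [h.M5]; exact spE_M5) h4.2.1
  · have h5 := h4.2.2
    rw [Bool.or_eq_true] at h5
    rw [← toM_M6 (θ := θ)]
    exact h.good hG hW (by rw [toM_M6]; exact spE_M6 hF)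
      (h5.resolve_left fun h6 => hp hF (Nat.eq_of_beq_eq_true h6))

end

/-! ### Conclusion -/

theorem neg_mem' {F : Type*} [Field F] {m : ℕ} (g : Matrix.symplecticGroup (Fin m) F) :
    -(g : Matrix (Fin m ⊕ Fin m) (Fin m ⊕ Fin m) F) ∈ Matrix.symplecticGroup (Fin m) F := by
  rw [SymplecticGroup.mem_iff, Matrix.transpose_neg, Matrix.neg_mul, Matrix.neg_mul, Matrix.mul_neg, neg_neg]
  exact SymplecticGroup.mem_iff.1 g.2

theorem pr_prod {F : Type*} [Field F] {N n0 : ℕ} (hN : N.Coprime n0) (hok : Ok F N)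
    (x : PSp 2 F) : H78.Pw.Pr n0 x := by
  obtain ⟨g, rfl⟩ := QuotientGroup.mk'_surjective _ x
  have hV : finrank F (Fin 2 ⊕ Fin 2 → F) = 4 := by
    rw [Module.finrank_fintype_fun_eq_card, Fintype.card_sum, Fintype.card_fin]
  -- the negative of `g`
  let g' : Matrix.symplecticGroup (Fin 2) F := ⟨_, neg_mem' g⟩
  have hact : Cfsg.Agent.S2445.act g' = ng (Cfsg.Agent.S2445.act g) := by
    apply LinearEquiv.ext
    intro v
    rw [ng_apply, Cfsg.Agent.S2445.act_apply, Cfsg.Agent.S2445.act_apply]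
    exact Matrix.neg_mulVec _ _
  have hmk : (QuotientGroup.mk' (Subgroup.center (Matrix.symplecticGroup (Fin 2) F))) g =
      (QuotientGroup.mk' (Subgroup.center (Matrix.symplecticGroup (Fin 2) F))) g' := by
    rw [QuotientGroup.mk'_apply, QuotientGroup.mk'_apply, QuotientGroup.eq, Subgroup.mem_center_iff]
    intro h
    apply Subtype.ext
    have e : (((g⁻¹ * g' : Matrix.symplecticGroup (Fin 2) F)) : Matrix (Fin 2 ⊕ Fin 2) (Fin 2 ⊕ Fin 2) F) = -1 := by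
      change ((g⁻¹ : Matrix.symplecticGroup (Fin 2) F) : Matrix (Fin 2 ⊕ Fin 2) (Fin 2 ⊕ Fin 2) F) *
        (-(g : Matrix (Fin 2 ⊕ Fin 2) (Fin 2 ⊕ Fin 2) F)) = -1
      rw [Matrix.mul_neg, ← Submonoid.coe_mul, inv_mul_cancel]
      rfl
    change (h : Matrix (Fin 2 ⊕ Fin 2) (Fin 2 ⊕ Fin 2) F) *
      ((g⁻¹ * g' : Matrix.symplecticGroup (Fin 2) F) : Matrix (Fin 2 ⊕ Fin 2) (Fin 2 ⊕ Fin 2) F) =
      ((g⁻¹ * g' : Matrix.symplecticGroup (Fin 2) F) : Matrix (Fin 2 ⊕ Fin 2) (Fin 2 ⊕ Fin 2) F) * h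
    rw [e, Matrix.mul_neg, Matrix.neg_mul, Matrix.mul_one, Matrix.one_mul]
  have key : PrB (Cfsg.Agent.S2445.form F 2) n0 (Cfsg.Agent.S2445.act g) ∨
      PrB (Cfsg.Agent.S2445.form F 2) n0 (ng (Cfsg.Agent.S2445.act g)) := by
    have one : PrB (Cfsg.Agent.S2445.form F 2) n0 1 :=
      ⟨1, 1, 1, Iso.one _, Iso.one _, (one_mul 1).symm, Nat.coprime_one_left _, one_pow _, one_pow _⟩
    by_cases h1 : Cfsg.Agent.S2445.act g = 1
    · left
      rw [h1]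
      exact one
    by_cases h2 : ng (Cfsg.Agent.S2445.act g) = 1
    · right
      rw [h2]
      exact one
    obtain ⟨β, p, M, hβ, hG, hA, hM⟩ := nf hV Cfsg.Agent.S2445.form_alt Cfsg.Agent.S2445.form_nond
      (Cfsg.Agent.S2445.act_iso g) h1 h2
    exact prB_of_good hV hN (Cfsg.Agent.S2445.act_iso g) hG hβ hA (hok.all M hM)
  rcases key with h | h
  · exact (pr_of_prB h).map _
  · rw [← hact] at h
    rw [hmk]
    exact (pr_of_prB h).map _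

end Cfsg.Agent.H474.Pw
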