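import Cfsg.Agent.H474.Pw.Eng
import Cfsg.Agent.H649.PwSp.Big

/-!
# Normal forms of isometries of a symplectic space of dimension four

`nf` : every isometry `g ≠ 1, -1` has one of the matrices `M1 … M6` in a basis with Gram matrix `β J4`.
-/

set_option autoImplicit false

open Module Matrix

namespace Cfsg.Agent.H474.Pw

open Cfsg.Agent.H144 Cfsg.Agent.H649.PwSp

variable {F V : Type*} [Field F] [AddCommGroup V] [Module F V]

/-- the Gram matrix of `b` is `β J4` -/
def Gram (B : LinearMap.BilinForm F V) (β : F) (b : Fin 4 → V) : Prop := ∀ i j, B (b i) (b j) = β * J4 F i j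

/-- `g` has the matrix `M` -/
def Acts (g : V ≃ₗ[F] V) (b : Fin 4 → V) (M : Matrix (Fin 4) (Fin 4) F) : Prop := ∀ j, g (b j) = ∑ i, M i j • b i

variable {B : LinearMap.BilinForm F V} {β : F}

theorem gram_of (hB : Alt B) {p0 p1 p2 p3 : V} (h01 : B p0 p1 = β) (h02 : B p0 p2 = 0) (h03 : B p0 p3 = 0)
    (h12 : B p1 p2 = 0) (h13 : B p1 p3 = 0) (h23 : B p2 p3 = β) : Gram B β ![p0, p1, p2, p3] := by
  have h10 : B p1 p0 = -β := by rw [hB.neg, h01]
  have h20 := hB.zero h02
  have h30 := hB.zero h03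
  have h21 := hB.zero h12
  have h31 := hB.zero h13
  have h32 : B p3 p2 = -β := by rw [hB.neg, h23]
  have a0 := hB p0
  have a1 := hB p1
  have a2 := hB p2
  have a3 := hB p3
  intro i j
  fin_cases i <;> fin_cases j <;> simp [J4, *]

theorem Gram.sum_left {b : Fin 4 → V} (h : Gram B β b) (c : Fin 4 → F) (j : Fin 4) :
    B (∑ i, c i • b i) (b j) = β * (c 0 * J4 F 0 j + c 1 * J4 F 1 j + c 2 * J4 F 2 j + c 3 * J4 F 3 j) := by
  simp only [Fin.sum_univ_four, map_add, map_smul, LinearMap.add_apply, LinearMap.smul_apply, smul_eq_mul, h _ j]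
  ring

theorem Gram.sum_sum {b : Fin 4 → V} (h : Gram B β b) (x y : Fin 4 → F) :
    B (∑ i, x i • b i) (∑ i, y i • b i) = β * Bv x y := by
  rw [Fin.sum_univ_four (fun i => y i • b i)]
  simp only [map_add, map_smul, smul_eq_mul, h.sum_left]
  simp [J4, Bv]
  ring

theorem Gram.li {b : Fin 4 → V} (h : Gram B β b) (hβ : β ≠ 0) : LinearIndependent F b := by
  rw [Fintype.linearIndependent_iff]
  intro c hc
  have key : ∀ j, β * (c 0 * J4 F 0 j + c 1 * J4 F 1 j + c 2 * J4 F 2 j + c 3 * J4 F 3 j) = 0 := fun j => by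
    rw [← h.sum_left, hc, map_zero, LinearMap.zero_apply]
  have k0 := (mul_eq_zero.1 (key 0)).resolve_left hβ
  have k1 := (mul_eq_zero.1 (key 1)).resolve_left hβ
  have k2 := (mul_eq_zero.1 (key 2)).resolve_left hβ
  have k3 := (mul_eq_zero.1 (key 3)).resolve_left hβ
  simp [J4] at k0 k1 k2 k3
  intro i
  fin_cases i <;> assumption

/-- the basis -/
noncomputable def Gram.basis [FiniteDimensional F V] {b : Fin 4 → V} (h : Gram B β b) (hβ : β ≠ 0)
    (hV : finrank F V = 4) : Basis (Fin 4) F V :=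
  basisOfLinearIndependentOfCardEqFinrank (h.li hβ) (by rw [Fintype.card_fin, hV])

theorem Gram.basis_apply [FiniteDimensional F V] {b : Fin 4 → V} (h : Gram B β b) (hβ : β ≠ 0)
    (hV : finrank F V = 4) (i : Fin 4) : h.basis hβ hV i = b i := by
  rw [Gram.basis, coe_basisOfLinearIndependentOfCardEqFinrank]

theorem Gram.ext [FiniteDimensional F V] {b : Fin 4 → V} (h : Gram B β b) (hβ : β ≠ 0) (hV : finrank F V = 4)
    (hN : Nond B) {x y : V} (hxy : ∀ k, B x (b k) = B y (b k)) : x = y := by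
  rw [← sub_eq_zero]
  apply hN
  have h1 : B (x - y) = 0 := by
    apply (h.basis hβ hV).ext
    intro k
    rw [h.basis_apply, map_sub, LinearMap.sub_apply, hxy, sub_self, LinearMap.zero_apply]
  intro w
  rw [h1, LinearMap.zero_apply]

theorem Gram.sum_eq [FiniteDimensional F V] {b : Fin 4 → V} (h : Gram B β b) (hβ : β ≠ 0) (hV : finrank F V = 4)
    (hN : Nond B) {x : V} {c : Fin 4 → F} (h0 : B x (b 0) = -(β * c 1)) (h1 : B x (b 1) = β * c 0)
    (h2 : B x (b 2) = -(β * c 3)) (h3 : B x (b 3) = β * c 2) : x = ∑ i, c i • b i := by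
  apply h.ext hβ hV hN
  intro k
  rw [h.sum_left]
  fin_cases k
  · simpa [J4] using h0
  · simpa [J4] using h1
  · simpa [J4] using h2
  · simpa [J4] using h3

theorem Acts.spE {g : V ≃ₗ[F] V} (hg : Iso B g) {b : Fin 4 → V} (h : Gram B β b) (hβ : β ≠ 0)
    {M : Matrix (Fin 4) (Fin 4) F} (hM : Acts g b M) : SpE M := by
  intro i j
  have h1 := hg (b i) (b j)
  rw [hM i, hM j, h.sum_sum (fun k => M k i) (fun k => M k j), h i j] at h1
  exact mul_left_cancel₀ hβ h1

/-! ### From matrices to isometries -/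

section Lin

variable (bs : Basis (Fin 4) F V)

/-- the isometry with matrix `Y` -/
noncomputable def lin (Y : Matrix (Fin 4) (Fin 4) F) (hY : SpE Y) : V ≃ₗ[F] V :=
  LinearEquiv.ofLinearMap (Matrix.toLinAlgEquiv bs Y) (Matrix.toLinAlgEquiv bs (adjJ Y))
    (by
      rw [← Module.End.mul_eq_comp, ← map_mul, mul_adjJ hY, map_one]
      rfl)
    (by
      rw [← Module.End.mul_eq_comp, ← map_mul, adjJ_mul hY, map_one]
      rfl)

theorem coe_lin (Y : Matrix (Fin 4) (Fin 4) F) (hY : SpE Y) :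
    ((lin bs Y hY : V ≃ₗ[F] V) : V →ₗ[F] V) = Matrix.toLinAlgEquiv bs Y := rfl

theorem lin_apply (Y : Matrix (Fin 4) (Fin 4) F) (hY : SpE Y) (j : Fin 4) :
    lin bs Y hY (bs j) = ∑ i, Y i j • bs i := Matrix.toLinAlgEquiv_self bs Y j

theorem coe_pow (x : V ≃ₗ[F] V) (n : ℕ) : ((x ^ n : V ≃ₗ[F] V) : V →ₗ[F] V) = (x : V →ₗ[F] V) ^ n := by
  induction n with
  | zero => rfl
  | succ n ih => rw [pow_succ, pow_succ, ← ih]; rfl

theorem pow_eq_one_of_coe {x : V ≃ₗ[F] V} {Y : Matrix (Fin 4) (Fin 4) F} (h : (x : V →ₗ[F] V) = Matrix.toLinAlgEquiv bs Y)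
    {N : ℕ} (hY : Y ^ N = 1) : x ^ N = 1 := by
  apply LinearEquiv.toLinearMap_injective
  rw [coe_pow, h, ← map_pow, hY, map_one]
  rfl

theorem lin_iso (h : Gram B β bs) (Y : Matrix (Fin 4) (Fin 4) F) (hY : SpE Y) : Iso B (lin bs Y hY) := by
  have h1 : B.compl₁₂ ((lin bs Y hY : V ≃ₗ[F] V) : V →ₗ[F] V) ((lin bs Y hY : V ≃ₗ[F] V) : V →ₗ[F] V) = B := by
    apply LinearMap.ext_basis bs bs
    intro i j
    rw [LinearMap.compl₁₂_apply, LinearEquiv.coe_coe, lin_apply, lin_apply,
      h.sum_sum (fun k => Y k i) (fun k => Y k j), hY i j, h i j]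
  intro x y
  exact LinearMap.congr_fun (LinearMap.congr_fun h1 x) y

end Lin

theorem prB_of_good [FiniteDimensional F V] (hV : finrank F V = 4) {N n0 : ℕ} (hN0 : N.Coprime n0)
    {g : V ≃ₗ[F] V} (hg : Iso B g) {b : Fin 4 → V} (h : Gram B β b) (hβ : β ≠ 0) {M : Matrix (Fin 4) (Fin 4) F}
    (hM : Acts g b M) (hG : GoodM N M) : PrB B n0 g ∨ PrB B n0 (ng g) := by
  obtain ⟨W, hW, hWN, hWM⟩ := hG
  let bs := h.basis hβ hV
  have hbs : ∀ i, bs i = b i := h.basis_apply hβ hV
  have hGr : Gram B β bs := fun i j => by rw [hbs, hbs]; exact h i j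
  let w := lin bs W hW
  have hw : Iso B w := lin_iso bs hGr W hW
  have hwN : w ^ N = 1 := pow_eq_one_of_coe bs (coe_lin bs W hW) hWN
  have hgM : (g : V →ₗ[F] V) = Matrix.toLinAlgEquiv bs M := by
    apply bs.ext
    intro j
    rw [LinearEquiv.coe_coe, Matrix.toLinAlgEquiv_self, hbs, hM j]
    refine Finset.sum_congr rfl fun i _ => ?_
    rw [hbs]
  have hy : ((w * g : V ≃ₗ[F] V) : V →ₗ[F] V) = Matrix.toLinAlgEquiv bs (W * M) := by
    rw [map_mul, ← hgM]
    rfl
  have hwi : (w⁻¹) ^ N = 1 := by rw [inv_pow, hwN, inv_one]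
  rcases hWM with h1 | h1
  · left
    refine ⟨w⁻¹, w * g, N, hw.inv, hw.mul hg, by group, hN0, hwi, pow_eq_one_of_coe bs hy h1⟩
  · right
    have hy' : ((ng (w * g) : V ≃ₗ[F] V) : V →ₗ[F] V) = Matrix.toLinAlgEquiv bs (-(W * M)) := by
      rw [map_neg, ← hy]
      rfl
    refine ⟨w⁻¹, ng (w * g), N, hw.inv, ng_iso (hw.mul hg), ?_, hN0, hwi, pow_eq_one_of_coe bs hy' h1⟩
    apply LinearEquiv.ext
    intro x
    rw [LinearEquiv.mul_apply, ng_apply, ng_apply, map_neg, LinearEquiv.mul_apply, inv_app]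

/-! ### The normal forms -/

/-- first form -/
def M1 (b c d : F) : Matrix (Fin 4) (Fin 4) F := !![0, -1, 0, 0; 1, b, c, d; 0, 1, 0, -c⁻¹; 0, 0, c, d]

/-- second form -/
def M2 (b c d : F) : Matrix (Fin 4) (Fin 4) F := !![0, -1, 0, 0; 1, b, 0, c⁻¹; 0, 1, c, d; 0, 0, 0, c⁻¹]

/-- third form -/
def M3 (b c d : F) : Matrix (Fin 4) (Fin 4) F := !![0, -1, 0, 0; 1, b, 0, 0; 0, 0, 0, -c⁻¹; 0, 0, c, d]

/-- fourth form -/
def M4 (b e : F) : Matrix (Fin 4) (Fin 4) F := !![0, -1, 0, 0; 1, b, 0, 0; 0, 0, e, 0; 0, 0, 0, e]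

/-- fifth form -/
def M5 (F : Type*) [Field F] : Matrix (Fin 4) (Fin 4) F := !![1, 0, 0, 0; 0, 1, 0, 0; 0, 0, -1, 0; 0, 0, 0, -1]

/-- sixth form (characteristic two) -/
def M6 (F : Type*) [Field F] : Matrix (Fin 4) (Fin 4) F := !![1, 0, 0, 0; 0, 1, 1, 0; 0, 0, 1, 0; 1, 0, 0, 1]

/-- the list of forms -/
def Form (M : Matrix (Fin 4) (Fin 4) F) : Prop :=
  (∃ b c d : F, c ≠ 0 ∧ (M = M1 b c d ∨ M = M2 b c d ∨ M = M3 b c d)) ∨
  (∃ b : F, M = M4 b 1 ∨ M = M4 b (-1)) ∨ ((2 : F) ≠ 0 ∧ M = M5 F) ∨ ((2 : F) = 0 ∧ M = M6 F)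

/-- projection to the orthogonal complement of the plane `⟨v, u⟩` -/
theorem exists_proj (hB : Alt B) (hβ : β ≠ 0) {v u : V} (h : B v u = β) (x : V) :
    ∃ a c : F, B v (x + a • v + c • u) = 0 ∧ B u (x + a • v + c • u) = 0 := by
  have h' : B u v = -β := by rw [hB.neg, h]
  refine ⟨β⁻¹ * B u x, -(β⁻¹ * B v x), ?_, ?_⟩
  · rw [map_add, map_add, map_smul, map_smul, hB v, h, smul_zero, smul_eq_mul]
    field_simp
    ring
  · rw [map_add, map_add, map_smul, map_smul, hB u, h', smul_zero, smul_eq_mul]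
    field_simp
    ring

/-- partner in the orthogonal complement of the plane `⟨v, u⟩` -/
theorem exists_partner (hB : Alt B) (hN : Nond B) (hβ : β ≠ 0) {v u w : V} (h : B v u = β) (hvw : B v w = 0)
    (huw : B u w = 0) (hw : w ≠ 0) : ∃ x, B v x = 0 ∧ B u x = 0 ∧ B w x = β := by
  obtain ⟨y, hy⟩ : ∃ y, B w y ≠ 0 := by
    by_contra hcon
    push Not at hcon
    exact hw (hN w hcon)
  obtain ⟨a, c, h1, h2⟩ := exists_proj hB hβ h y
  have h3 : B w (y + a • v + c • u) = B w y := by
    rw [map_add, map_add, map_smul, map_smul, hB.zero hvw, hB.zero huw, smul_zero, smul_zero, add_zero, add_zero]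
  refine ⟨(β * (B w y)⁻¹) • (y + a • v + c • u), ?_, ?_, ?_⟩
  · rw [map_smul, h1, smul_zero]
  · rw [map_smul, h2, smul_zero]
  · rw [map_smul, h3, smul_eq_mul, inv_mul_cancel_right₀ hy]

theorem exists_ne [FiniteDimensional F V] (hV : finrank F V = 4) (hB : Alt B) (hβ : β ≠ 0) {v u : V} (h : B v u = β) :
    ∃ w : V, w ≠ 0 ∧ B v w = 0 ∧ B u w = 0 := by
  obtain ⟨x, hx⟩ : ∃ x, x ∉ Submodule.span F {v, u} := by
    by_contra hcon
    push Not at hcon
    classical
    have h1 : Submodule.span F (({v, u} : Finset V) : Set V) = ⊤ := by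
      rw [Finset.coe_pair]
      exact Submodule.eq_top_iff'.2 hcon
    have h2 := finrank_span_finset_le_card (R := F) ({v, u} : Finset V)
    rw [Set.finrank, h1, finrank_top, hV] at h2
    have h3 := Finset.card_le_two (a := v) (b := u)
    omega
  obtain ⟨a, c, h1, h2⟩ := exists_proj hB hβ h x
  refine ⟨_, fun h0 => hx ?_, h1, h2⟩
  have e : x = (-a) • v + (-c) • u := by
    have : x = (x + a • v + c • u) - a • v - c • u := by abel
    rw [this, h0, neg_smul, neg_smul]
    abel
  rw [e]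
  exact Submodule.mem_span_pair.2 ⟨_, _, rfl⟩

/-- `v, gv` span an invariant plane -/
theorem nf_plane [FiniteDimensional F V] (hV : finrank F V = 4) (hB : Alt B) (hN : Nond B) {g : V ≃ₗ[F] V}
    (hg : Iso B g) {v : V} (hβ : β ≠ 0) (hv : B v (g v) = β) {b : F} (hw : g (g v) = -v + b • g v) :
    ∃ (p : Fin 4 → V) (M : Matrix (Fin 4) (Fin 4) F), Gram B β p ∧ Acts g p M ∧ Form M := by
  have hu : ∀ x, B v x = 0 → B (g v) x = 0 → B v (g x) = 0 ∧ B (g v) (g x) = 0 := by
    intro x h1 h2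
    have h3 : B (g v) (g x) = 0 := by rw [hg, h1]
    refine ⟨?_, h3⟩
    have h4 : B (g (g v)) (g x) = 0 := by rw [hg, h2]
    rw [hw, map_add, map_neg, map_smul, LinearMap.add_apply, LinearMap.neg_apply, LinearMap.smul_apply, h3,
      smul_zero, add_zero, neg_eq_zero] at h4
    exact h4
  by_cases hex : ∃ x, B v x = 0 ∧ B (g v) x = 0 ∧ B x (g x) ≠ 0
  · obtain ⟨x, hx1, hx2, hx3⟩ := hex
    obtain ⟨hx4, hx5⟩ := hu x hx1 hx2
    -- `ρ = B x (g x) / β`
    obtain ⟨c, hc, hcβ⟩ : ∃ c : F, c ≠ 0 ∧ B x (g x) = c * β :=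
      ⟨B x (g x) * β⁻¹, mul_ne_zero hx3 (inv_ne_zero hβ), by rw [inv_mul_cancel_right₀ hβ]⟩
    have hG : Gram B β ![v, g v, x, c⁻¹ • g x] := by
      refine gram_of hB hv hx1 ?_ hx2 ?_ ?_
      · rw [map_smul, hx4, smul_zero]
      · rw [map_smul, hx5, smul_zero]
      · rw [map_smul, hcβ, smul_eq_mul, inv_mul_cancel_left₀ hc]
    obtain ⟨hx6, hx7⟩ := hu _ hx4 hx5
    -- `g (g x)`
    refine ⟨_, M3 b c (β⁻¹ * (c⁻¹ * (c⁻¹ * B x (g (g x))))* c), hG, ?_, Or.inl ⟨b, c, _, hc, Or.inr (Or.inr rfl)⟩⟩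
    have e3 : g (c⁻¹ • g x) = ∑ i, (M3 b c (β⁻¹ * (c⁻¹ * (c⁻¹ * B x (g (g x)))) * c)) i 3 •
        (![v, g v, x, c⁻¹ • g x] : Fin 4 → V) i := by
      refine hG.sum_eq hβ hV hN ?_ ?_ ?_ ?_
      · simp [M3, hB.zero hx6]
      · simp [M3, hB.zero hx7]
      · simp [M3, hB.neg (g (g x)) x]
        field_simp
      · have hgg : B (g (g x)) (g x) = -(c * β) := by rw [hg, hB.neg, hcβ]
        simp [M3, hgg]
        field_simp
    intro j
    fin_cases j
    · simp [Fin.sum_univ_four, M3]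
    · simp [Fin.sum_univ_four, M3, hw]
    · simp [Fin.sum_univ_four, M3, smul_smul, hc]
    · exact e3
  · push Not at hex
    obtain ⟨w, hw0, hw1, hw2⟩ := exists_ne hV hB hβ hv
    obtain ⟨x, hx1, hx2, hx3⟩ := exists_partner hB hN hβ hv hw1 hw2 hw0
    have hG : Gram B β ![v, g v, w, x] := gram_of hB hv hw1 hx1 hw2 hx2 hx3
    have hww := hex w hw1 hw2
    have hxx := hex x hx1 hx2
    have hwx : B (w + x) (g (w + x)) = 0 := hex _ (by rw [map_add, hw1, hx1, add_zero]) (by rw [map_add, hw2, hx2, add_zero])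
    rw [map_add, map_add, map_add, LinearMap.add_apply, LinearMap.add_apply, hww, hxx, zero_add, add_zero] at hwx
    obtain ⟨hw3, hw4⟩ := hu w hw1 hw2
    obtain ⟨hx4, hx5⟩ := hu x hx1 hx2
    obtain ⟨e, he⟩ : ∃ e : F, B w (g x) = β * e := ⟨β⁻¹ * B w (g x), by rw [mul_inv_cancel_left₀ hβ]⟩
    have he' : B x (g w) = -(β * e) := by rw [← he]; linear_combination hwx
    have ew : g w = e • w := by
      have : g w = ∑ i, (![0, 0, e, 0] : Fin 4 → F) i • (![v, g v, w, x] : Fin 4 → V) i := by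
        refine hG.sum_eq hβ hV hN ?_ ?_ ?_ ?_
        · simp [hB.zero hw3]
        · simp [hB.zero hw4]
        · simp [hB.zero hww]
        · simp only [Matrix.cons_val]
          rw [hB.neg, he', neg_neg]
      rw [this]
      simp [Fin.sum_univ_four]
    have ex : g x = e • x := by
      have : g x = ∑ i, (![0, 0, 0, e] : Fin 4 → F) i • (![v, g v, w, x] : Fin 4 → V) i := by
        refine hG.sum_eq hβ hV hN ?_ ?_ ?_ ?_
        · simp [hB.zero hx4]
        · simp [hB.zero hx5]
        · simp only [Matrix.cons_val]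
          rw [hB.neg, he]
        · simp [hB.zero hxx]
      rw [this]
      simp [Fin.sum_univ_four]
    have hee : e * e = 1 := by
      have h1 := hg w x
      rw [ew, ex, map_smul, map_smul, LinearMap.smul_apply, hx3, smul_eq_mul, smul_eq_mul] at h1
      have h2 : (e * e - 1) * β = 0 := by linear_combination h1
      exact sub_eq_zero.1 ((mul_eq_zero.1 h2).resolve_right hβ)
    refine ⟨_, M4 b e, hG, ?_, Or.inr (Or.inl ⟨b, ?_⟩)⟩
    · intro j
      fin_cases j
      · simp [Fin.sum_univ_four, M4]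
      · simp [Fin.sum_univ_four, M4, hw]
      · simp [Fin.sum_univ_four, M4, ew]
      · simp [Fin.sum_univ_four, M4, ex]
    · rcases mul_self_eq_one_iff.1 hee with rfl | rfl
      · exact Or.inl rfl
      · exact Or.inr rfl

/-- `g² v` is not in the plane -/
theorem nf_big [FiniteDimensional F V] (hV : finrank F V = 4) (hB : Alt B) (hN : Nond B) {g : V ≃ₗ[F] V}
    (hg : Iso B g) {v w : V} (hβ : β ≠ 0) (hv : B v (g v) = β) {b : F} (hw : g (g v) = -v + b • g v + w) (hw0 : w ≠ 0)
    (hw1 : B v w = 0) (hw2 : B (g v) w = 0) :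
    ∃ (p : Fin 4 → V) (M : Matrix (Fin 4) (Fin 4) F), Gram B β p ∧ Acts g p M ∧ Form M := by
  have hvv : v = -g (g v) + b • g v + w := by rw [hw]; abel
  -- `B (g x) v = B (g x) w` for `x ⊥ v, g v`
  have key : ∀ x, B x v = 0 → B x (g v) = 0 → B (g x) v = B (g x) w := by
    intro x h1 h2
    nth_rewrite 1 [hvv]
    rw [map_add, map_add, map_neg, map_smul, hg, h2, hg, h1, smul_zero, neg_zero, add_zero, zero_add]
  have hgv : ∀ x, B x v = 0 → B (g x) (g v) = 0 := fun x h => by rw [hg, h]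
  obtain ⟨c, hc⟩ : ∃ c : F, B w (g w) = β * c := ⟨β⁻¹ * B w (g w), by rw [mul_inv_cancel_left₀ hβ]⟩
  have hwv := key w (hB.zero hw1) (hB.zero hw2)
  have hwv' : B (g w) v = -(β * c) := by rw [hwv, hB.neg, hc]
  have hwg : B (g w) (g v) = 0 := hgv w (hB.zero hw1)
  by_cases hc0 : c = 0
  · -- second form
    obtain ⟨x, hx1, hx2, hx3⟩ := exists_partner hB hN hβ hv hw1 hw2 hw0
    have hG : Gram B β ![v, g v, w, x] := gram_of hB hv hw1 hx1 hw2 hx2 hx3
    rw [hc0, mul_zero] at hc hwv'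
    rw [neg_zero] at hwv'
    obtain ⟨e, he⟩ : ∃ e : F, B (g w) x = β * e := ⟨β⁻¹ * B (g w) x, by rw [mul_inv_cancel_left₀ hβ]⟩
    obtain ⟨d, hd⟩ : ∃ d : F, B (g x) x = β * d := ⟨β⁻¹ * B (g x) x, by rw [mul_inv_cancel_left₀ hβ]⟩
    obtain ⟨f, hf⟩ : ∃ f : F, B (g x) w = -(β * f) :=
      ⟨-(β⁻¹ * B (g x) w), by rw [mul_neg, neg_neg, mul_inv_cancel_left₀ hβ]⟩
    have ew : g w = e • w := by
      have : g w = ∑ i, (![0, 0, e, 0] : Fin 4 → F) i • (![v, g v, w, x] : Fin 4 → V) i := by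
        refine hG.sum_eq hβ hV hN ?_ ?_ ?_ ?_
        · simp [hwv']
        · simp [hwg]
        · simp [hB.zero hc]
        · simpa using he
      rw [this]
      simp [Fin.sum_univ_four]
    have hef : e * f = 1 := by
      have h1 := hg w x
      rw [hx3, ew, map_smul, LinearMap.smul_apply, hB.neg w (g x), hf, neg_neg, smul_eq_mul] at h1
      have h2 : (e * f - 1) * β = 0 := by linear_combination h1
      exact sub_eq_zero.1 ((mul_eq_zero.1 h2).resolve_right hβ)
    have he0 : e ≠ 0 := left_ne_zero_of_mul_eq_one hef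
    have hfe : f = e⁻¹ := eq_inv_of_mul_eq_one_right hef
    have ex : g x = ∑ i, (![0, f, d, f] : Fin 4 → F) i • (![v, g v, w, x] : Fin 4 → V) i := by
      refine hG.sum_eq hβ hV hN ?_ ?_ ?_ ?_
      · simpa using (key x (hB.zero hx1) (hB.zero hx2)).trans hf
      · simpa using hgv x (hB.zero hx1)
      · simpa using hf
      · simpa using hd
    refine ⟨_, M2 b e d, hG, ?_, Or.inl ⟨b, e, d, he0, Or.inr (Or.inl rfl)⟩⟩
    intro j
    fin_cases j
    · simp [Fin.sum_univ_four, M2]
    · simp [Fin.sum_univ_four, M2, hw]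
    · simp [Fin.sum_univ_four, M2, ew]
    · have : g x = _ := ex
      rw [hfe] at this
      simpa [Fin.sum_univ_four, M2] using this
  · -- first form
    have hx0 : B w (c⁻¹ • g w - g v) = β := by
      rw [map_sub, map_smul, hc, hB.zero hw2, smul_eq_mul, sub_zero]
      field_simp
    have hx1 : B v (c⁻¹ • g w - g v) = 0 := by
      rw [map_sub, map_smul, hB.neg v (g w), hwv', hv, smul_eq_mul]
      field_simp
      ring
    have hx2 : B (g v) (c⁻¹ • g w - g v) = 0 := by
      rw [map_sub, map_smul, hB.zero hwg, hB (g v), smul_zero, sub_zero]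
    generalize hx : c⁻¹ • g w - g v = x at hx0 hx1 hx2
    have hG : Gram B β ![v, g v, w, x] := gram_of hB hv hw1 hx1 hw2 hx2 hx0
    have ew : g w = c • g v + c • x := by
      rw [← hx, smul_sub, smul_smul, mul_inv_cancel₀ hc0, one_smul]
      abel
    obtain ⟨f, hf⟩ : ∃ f : F, B (g x) w = -(β * f) :=
      ⟨-(β⁻¹ * B (g x) w), by rw [mul_neg, neg_neg, mul_inv_cancel_left₀ hβ]⟩
    have hgx : B (g x) x = β * (-c⁻¹) := by
      have h1 := hg w x
      rw [hx0, ew, map_add, map_smul, map_smul, LinearMap.add_apply, LinearMap.smul_apply, LinearMap.smul_apply,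
        hB.zero (hgv x (hB.zero hx1)), smul_zero, zero_add, smul_eq_mul, hB.neg x (g x)] at h1
      have : B (g x) x = - (c⁻¹ * β) := by
        rw [← h1]
        field_simp
      rw [this]
      ring
    have ex : g x = ∑ i, (![0, f, -c⁻¹, f] : Fin 4 → F) i • (![v, g v, w, x] : Fin 4 → V) i := by
      refine hG.sum_eq hβ hV hN ?_ ?_ ?_ ?_
      · simpa using (key x (hB.zero hx1) (hB.zero hx2)).trans hf
      · simpa using hgv x (hB.zero hx1)
      · simpa using hf
      · simpa using hgx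
    refine ⟨_, M1 b c f, hG, ?_, Or.inl ⟨b, c, f, hc0, Or.inl rfl⟩⟩
    intro j
    fin_cases j
    · simp [Fin.sum_univ_four, M1]
    · simp [Fin.sum_univ_four, M1, hw]
    · simp [Fin.sum_univ_four, M1, ew]
    · have : g x = _ := ex
      simpa [Fin.sum_univ_four, M1] using this

/-- **normal forms** -/
theorem nf [FiniteDimensional F V] (hV : finrank F V = 4) (hB : Alt B) (hN : Nond B) {g : V ≃ₗ[F] V}
    (hg : Iso B g) (h1 : g ≠ 1) (h2 : ng g ≠ 1) :
    ∃ (β : F) (p : Fin 4 → V) (M : Matrix (Fin 4) (Fin 4) F), β ≠ 0 ∧ Gram B β p ∧ Acts g p M ∧ Form M := by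
  by_cases hex : ∃ v, B v (g v) ≠ 0
  · obtain ⟨v, hv⟩ := hex
    obtain ⟨β, hβ⟩ : ∃ β, B v (g v) = β := ⟨_, rfl⟩
    rw [hβ] at hv
    obtain ⟨b, hb⟩ : ∃ b, B v (g (g v)) = b * β := ⟨B v (g (g v)) * β⁻¹, by rw [inv_mul_cancel_right₀ hv]⟩
    obtain ⟨w, hw⟩ : ∃ w, w = g (g v) + v - b • g v := ⟨_, rfl⟩
    have hw' : g (g v) = -v + b • g v + w := by rw [hw]; abel
    by_cases hw0 : w = 0
    · rw [hw0, add_zero] at hw'
      obtain ⟨p, M, hp⟩ := nf_plane hV hB hN hg hv hβ hw'
      exact ⟨β, p, M, hv, hp⟩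
    · obtain ⟨p, M, hp⟩ := nf_big hV hB hN hg hv hβ hw' hw0
        (by rw [hw, map_sub, map_add, map_smul, hB v, hβ, hb, smul_eq_mul, add_zero, sub_self])
        (by
          rw [hw, map_sub, map_add, map_smul, hB (g v), hg, hβ, hB.neg (g v) v, hβ, smul_zero]
          ring)
      exact ⟨β, p, M, hv, hp⟩
  · push Not at hex
    -- `g² = 1`
    have hpol : ∀ x y, B x (g y) = - B y (g x) := by
      intro x y
      have h := hex (x + y)
      rw [map_add, map_add, map_add, LinearMap.add_apply, LinearMap.add_apply, hex x, hex y, zero_add, add_zero] at h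
      linear_combination h
    have hsym : ∀ x y, B x (g y) = B (g x) y := by
      intro x y
      rw [hpol, hB.neg (g x) y]
    have hgg : ∀ x, g (g x) = x := by
      intro x
      rw [← sub_eq_zero]
      apply hN
      intro y
      rw [map_sub, LinearMap.sub_apply, ← hsym, hg, sub_self]
    by_cases h2F : (2 : F) = 0
    · -- characteristic two
      have hneg : ∀ x : V, -x = x := by
        intro x
        rw [neg_eq_iff_add_eq_zero, ← two_smul F x, h2F, zero_smul]
      have hnegF : ∀ a : F, -a = a := by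
        intro a
        rw [neg_eq_iff_add_eq_zero, ← two_mul, h2F, zero_mul]
      have hBs : ∀ x y, B x y = B y x := fun x y => by rw [hB.neg, hnegF]
      obtain ⟨w₀, hw₀⟩ : ∃ w, g w + w ≠ 0 := by
        by_contra hcon
        push Not at hcon
        apply h1
        apply LinearEquiv.ext
        intro x
        rw [← hneg (g x)]
        exact neg_eq_of_add_eq_zero_right (hcon x)
      obtain ⟨v, hv⟩ : ∃ v, B v (g w₀ + w₀) ≠ 0 := by
        by_contra hcon
        push Not at hcon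
        exact hw₀ (hN _ fun y => by rw [hBs]; exact hcon y)
      obtain ⟨β, hβ⟩ : ∃ β, B v (g w₀ + w₀) = β := ⟨_, rfl⟩
      rw [hβ] at hv
      -- correct `w`
      obtain ⟨a, ha⟩ : ∃ a, B v w₀ = a * β := ⟨B v w₀ * β⁻¹, by rw [inv_mul_cancel_right₀ hv]⟩
      obtain ⟨w, hw⟩ : ∃ w, w = w₀ + a • (g w₀ + w₀) := ⟨_, rfl⟩
      have hgw : g w + w = g w₀ + w₀ := by
        rw [hw, map_add, map_smul, map_add, hgg]
        have : a • (w₀ + g w₀) + a • (g w₀ + w₀) = 0 := by
          rw [← smul_add, show w₀ + g w₀ + (g w₀ + w₀) = (g w₀ + w₀) + (g w₀ + w₀) by abel, ← two_smul F, h2F, zero_smul,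
            smul_zero]
        calc g w₀ + a • (w₀ + g w₀) + (w₀ + a • (g w₀ + w₀)) =
            g w₀ + w₀ + (a • (w₀ + g w₀) + a • (g w₀ + w₀)) := by abel
          _ = _ := by rw [this, add_zero]
      have hvw : B v w = 0 := by
        rw [hw, map_add, map_smul, hβ, ha, smul_eq_mul, ← two_mul, h2F, zero_mul]
      have hvn : B v (g w + w) = β := by rw [hgw, hβ]
      have hvgw : B v (g w) = β := by rw [map_add, hvw, add_zero] at hvn; exact hvn
      have hwgv : B w (g v) = β := by rw [hpol, hvgw, hnegF]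
      have hwv : B w v = 0 := by rw [hBs, hvw]
      have hgwgv : B (g w) (g v) = 0 := by rw [hg, hwv]
      have hgwv : B (g w) v = β := by rw [hBs, hvgw]
      have hgww : B (g w) w = 0 := by rw [hBs, hex]
      refine ⟨β, ![v, g w + w, w, g v + v], M6 F, hv, ?_, ?_, Or.inr (Or.inr (Or.inr ⟨h2F, rfl⟩))⟩
      · refine gram_of hB hvn hvw ?_ ?_ ?_ ?_
        · rw [map_add, hex, hB v, add_zero]
        · rw [map_add, LinearMap.add_apply, hgww, hB w, add_zero]
        · rw [map_add, map_add, LinearMap.add_apply, LinearMap.add_apply, hgwgv, hgwv, hwgv, hwv, zero_add,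
            add_zero, ← two_mul, h2F, zero_mul]
        · rw [map_add, hwgv, hwv, add_zero]
      · intro j
        fin_cases j
        · have e : g v = v + (g v + v) := by
            rw [add_left_comm, ← two_smul F v, h2F, zero_smul, add_zero]
          simpa [Fin.sum_univ_four, M6] using e
        · have e : g (g w) + g w = g w + w := by rw [hgg, add_comm]
          simpa [Fin.sum_univ_four, M6] using e
        · have e : g w = g w + w + w := by
            rw [add_assoc, ← two_smul F w, h2F, zero_smul, add_zero]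
          simpa [Fin.sum_univ_four, M6] using e
        · have e : g (g v) + g v = g v + v := by rw [hgg, add_comm]
          simpa [Fin.sum_univ_four, M6] using e
    · -- odd characteristic
      have plane : ∀ e : F, e * e = 1 → (∃ x, g x + e • x ≠ 0) →
          ∃ p q, B p q = 1 ∧ g p = e • p ∧ g q = e • q := by
        intro e he ⟨x, hx⟩
        obtain ⟨y, hy⟩ : ∃ y, B (g x + e • x) y ≠ 0 := by
          by_contra hcon
          push Not at hcon
          exact hx (hN _ hcon)
        have hgp : g (g x + e • x) = e • (g x + e • x) := by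
          rw [map_add, map_smul, hgg, smul_add, smul_smul, he, one_smul, add_comm]
        have hgq : ∀ z, g (g z + e • z) = e • (g z + e • z) := fun z => by
          rw [map_add, map_smul, hgg, smul_add, smul_smul, he, one_smul, add_comm]
        have hBq : B (g x + e • x) (g y + e • y) = 2 * e * B (g x + e • x) y := by
          have h3 : B (g x + e • x) (g y) = e * B (g x + e • x) y := by
            rw [hsym, hgp, map_smul, LinearMap.smul_apply, smul_eq_mul]
          rw [map_add, map_smul, h3, smul_eq_mul]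
          ring
        have he0 : e ≠ 0 := left_ne_zero_of_mul_eq_one he
        have hne : B (g x + e • x) (g y + e • y) ≠ 0 := by
          rw [hBq]
          exact mul_ne_zero (mul_ne_zero h2F he0) hy
        refine ⟨g x + e • x, (B (g x + e • x) (g y + e • y))⁻¹ • (g y + e • y), ?_, hgp, ?_⟩
        · rw [map_smul, smul_eq_mul, inv_mul_cancel₀ hne]
        · rw [map_smul, hgq, smul_comm]
      obtain ⟨p, q, hpq, hp, hq⟩ := plane 1 (mul_one 1) (by
        by_contra hcon
        push Not at hcon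
        apply h2
        apply LinearEquiv.ext
        intro x
        have := hcon x
        rw [one_smul] at this
        rw [ng_apply, eq_neg_of_add_eq_zero_left this, neg_neg]
        rfl)
      obtain ⟨r, s, hrs, hr, hs⟩ := plane (-1) (by ring) (by
        by_contra hcon
        push Not at hcon
        apply h1
        apply LinearEquiv.ext
        intro x
        have := hcon x
        rw [neg_one_smul, add_neg_eq_zero] at this
        exact this)
      rw [one_smul] at hp hq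
      rw [neg_one_smul] at hr hs
      have horth : ∀ x y, g x = x → g y = -y → B x y = 0 := by
        intro x y hx hy
        have h := hg x y
        rw [hx, hy, map_neg] at h
        have h' : 2 * B x y = 0 := by linear_combination -h
        exact (mul_eq_zero.1 h').resolve_left h2F
      refine ⟨1, ![p, q, r, s], M5 F, one_ne_zero, ?_, ?_, Or.inr (Or.inr (Or.inl ⟨h2F, rfl⟩))⟩
      · exact gram_of hB hpq (horth p r hp hr) (horth p s hp hs) (horth q r hq hr) (horth q s hq hs) hrs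
      · intro j
        fin_cases j
        · simpa [Fin.sum_univ_four, M5] using hp
        · simpa [Fin.sum_univ_four, M5] using hq
        · simpa [Fin.sum_univ_four, M5] using hr
        · simpa [Fin.sum_univ_four, M5] using hs

end Cfsg.Agent.H474.Pw
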